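import Cfsg.Agent.Lib.Fi23Cls.Arr

set_option autoImplicit false

namespace Cfsg.Agent.Lib.Fi23Cls

open Cfsg.Agent.Lib.TC.Fast

theorem C4_ok : allF Fu (nat_lit 20000) (nat_lit 5000) = true := by decide +kernel

end Cfsg.Agent.Lib.Fi23Cls
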