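import Cfsg.Agent.Lib.Fi23Cls.C0
import Cfsg.Agent.Lib.Fi23Cls.C1
import Cfsg.Agent.Lib.Fi23Cls.C2
import Cfsg.Agent.Lib.Fi23Cls.C3
import Cfsg.Agent.Lib.Fi23Cls.C4
import Cfsg.Agent.Lib.Fi23Cls.C5
import Cfsg.Agent.Lib.Fi23Cls.C6

set_option autoImplicit false

namespace Cfsg.Agent.Lib.Fi23Cls

open Cfsg.Agent.Lib.TC Cfsg.Agent.Lib.TC.Fast

theorem doneU : Done Fu 31671 := by
  have h0 := Done.zero Fu
  have h1 : Done Fu 5000 := done_step h0 C0_ok rfl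
  have h2 : Done Fu 10000 := done_step h1 C1_ok rfl
  have h3 : Done Fu 15000 := done_step h2 C2_ok rfl
  have h4 : Done Fu 20000 := done_step h3 C3_ok rfl
  have h5 : Done Fu 25000 := done_step h4 C4_ok rfl
  have h6 : Done Fu 30000 := done_step h5 C5_ok rfl
  have h7 : Done Fu 31671 := done_step h6 C6_ok rfl
  exact h7

end Cfsg.Agent.Lib.Fi23Cls
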