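import Cfsg.Agent.Lib.Fi23Cls.Done
import Cfsg.Agent.Lib.FiKit.Quot
import Cfsg.Agent.Lib.TC.Data.Fi23Main
import Cfsg.Agent.Lib.TC.Data.Fi23Cover

/-!
The class of 3-transpositions of the presented Fi₂₃: the central involution of the subgroup of index 31671.
-/

set_option autoImplicit false

namespace Cfsg.Agent.Lib.Fi23Cls

open Cfsg.Agent.Lib.TC Cfsg.Agent.Lib.TC.Fast Cfsg.Agent.Lib.TC.Data Cfsg.Agent.Lib.FiKit

noncomputable abbrev S : Sys Cfsg.Spor.Fi23.Gen := G.Fi23.sys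
noncomputable abbrev C := Cfsg.Agent.Lib.TC.Data.Fi23a.checked
abbrev G' := PresentedGroup S.rels

theorem Fu_spec {i : ℕ} (h : Fu i = true) :
    walk tT wt i = aU i ∧ aU (aU i) = i ∧ (∀ g ∈ [0,1,2,3,4,5,6,8,9], tT (aU i) g = aU (tT i g)) ∧
      iterN F1 2 i = i ∧ iterN F2 3 i = i := by
  obtain ⟨h1, h⟩ := bif'_spec h rfl
  obtain ⟨h2, h⟩ := bif'_spec h rfl
  obtain ⟨h3, h⟩ := bif'_spec h rfl
  obtain ⟨h4, h5⟩ := bif'_spec h rfl
  refine ⟨?_, Nat.eq_of_beq_eq_true h2, ?_, Nat.eq_of_beq_eq_true h4, Nat.eq_of_beq_eq_true h5⟩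
  · rw [← walkF_eq]
    exact Nat.eq_of_beq_eq_true h1
  · intro g hg
    exact Nat.eq_of_beq_eq_true (allL_spec h3 g hg)

theorem pt {i : ℕ} (hi : i < C.n) :
    walk tT wt i = aU i ∧ aU (aU i) = i ∧ (∀ g ∈ [0,1,2,3,4,5,6,8,9], tT (aU i) g = aU (tT i g)) ∧
      iterN F1 2 i = i ∧ iterN F2 3 i = i := Fu_spec (doneU i hi)

theorem hinj : Function.Injective C.tableData.φ := Fi23Main.faith.1

theorem lt_of_walk {w : List ℕ} (hw : ∀ g ∈ w, g < S.ng) {i : ℕ} (hi : i < C.n) : walk tT w i < C.n := by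
  have := C.tableData.walk_eq hw ⟨i, hi⟩
  have h2 : walk tT w i = ((C.tableData.φ (evalWord S.v w))⁻¹ ⟨i, hi⟩).val := this.symm
  rw [h2]
  exact Fin.is_lt _

theorem evalWord_append' (u w : List ℕ) : evalWord S.v (u ++ w) = evalWord S.v u * evalWord S.v w := by
  induction u with
  | nil => simp
  | cons g u ih => simp [ih, mul_assoc]

/-- Two words with the same walks. -/
theorem eval_eq_of_walk {w₁ w₂ : List ℕ} (h₁ : ∀ g ∈ w₁, g < S.ng) (h₂ : ∀ g ∈ w₂, g < S.ng)
    (h : ∀ i, i < C.n → walk tT w₁ i = walk tT w₂ i) : evalWord S.v w₁ = evalWord S.v w₂ := by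
  apply hinj
  rw [← inv_inj]
  ext i
  have e1 := C.tableData.walk_eq h₁ i
  have e2 := C.tableData.walk_eq h₂ i
  exact e1.trans ((h i i.2).trans e2.symm)

/-- Two words with different walks. -/
theorem eval_ne_of_walk {w₁ w₂ : List ℕ} (h₁ : ∀ g ∈ w₁, g < S.ng) (h₂ : ∀ g ∈ w₂, g < S.ng)
    {i : ℕ} (hi : i < C.n) (h : walk tT w₁ i ≠ walk tT w₂ i) : evalWord S.v w₁ ≠ evalWord S.v w₂ := by
  intro he
  apply h
  have e1 := C.tableData.walk_eq h₁ ⟨i, hi⟩
  have e2 := C.tableData.walk_eq h₂ ⟨i, hi⟩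
  rw [he] at e1
  exact e1.symm.trans e2

/-- The involution. -/
noncomputable def τ : G' := evalWord S.v wt

theorem hlt : ∀ g ∈ wt, g < S.ng := by decide +kernel
theorem hlu1 : ∀ g ∈ ur1, g < S.ng := by decide +kernel
theorem hlu2 : ∀ g ∈ ur2, g < S.ng := by decide +kernel
theorem hlr1 : ∀ g ∈ ru1, g < S.ng := by decide +kernel
theorem hlr2 : ∀ g ∈ ru2, g < S.ng := by decide +kernel

theorem inv_letter {g : ℕ} (hg : g < S.ng) : (S.v g)⁻¹ = S.v g := (S.v_inv hg).symm

/-- The inverse of a word of involutions. -/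
theorem inv_eval (w : List ℕ) (hw : ∀ g ∈ w, g < S.ng) : (evalWord S.v w)⁻¹ = evalWord S.v w.reverse := by
  induction w with
  | nil => simp
  | cons g w ih =>
    have hg : g < S.ng := hw g (by simp)
    rw [evalWord_cons, mul_inv_rev, ih (fun a ha => hw a (by simp [ha])), List.reverse_cons, evalWord_append',
      inv_letter hg]
    simp

theorem ττ : τ * τ = 1 := by
  rw [← pow_two]
  refine C.tableData.pow_eq_one_U hinj hlt 2 aU ?_ ?_
  · intro i hi
    exact (pt hi).1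
  · intro i hi
    exact (pt hi).2.1

/-- The letters commute with the involution. -/
theorem comm_letter {g : ℕ} (hg : g ∈ [0,1,2,3,4,5,6,8,9]) : S.v g * τ = τ * S.v g := by
  have hg' : g < S.ng := by
    have : ∀ a ∈ [0,1,2,3,4,5,6,8,9], a < S.ng := by decide +kernel
    exact this g hg
  have e1 : S.v g * τ = evalWord S.v (g :: wt) := rfl
  have e2 : τ * S.v g = evalWord S.v (wt ++ [g]) := by
    rw [evalWord_append']
    simp [τ]
  rw [e1, e2]
  apply eval_eq_of_walk
  · intro a ha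
    rcases List.mem_cons.1 ha with rfl | ha
    · exact hg'
    · exact hlt a ha
  · intro a ha
    rcases List.mem_append.1 ha with ha | ha
    · exact hlt a ha
    · rw [List.mem_singleton.1 ha]
      exact hg'
  · intro i hi
    rw [walk_cons, walk_append, (pt hi).1]
    have h1 : tT i g < C.n := by
      have := lt_of_walk (w := [g]) (by simpa using hg') hi
      exact this
    rw [(pt h1).1]
    exact ((pt hi).2.2.1 g hg).symm

/-- The subgroup. -/
noncomputable abbrev K : Subgroup G' :=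
  Sys.subOf S ({Cfsg.Spor.Fi23.a, Cfsg.Spor.Fi23.b, Cfsg.Spor.Fi23.c, Cfsg.Spor.Fi23.d, Cfsg.Spor.Fi23.e,
    Cfsg.Spor.Fi23.f, Cfsg.Spor.Fi23.g, Cfsg.Spor.Fi23.h, Cfsg.Spor.Fi23.i} : Set (FreeGroup Cfsg.Spor.Fi23.Gen))

theorem comm_K : ∀ k ∈ K, k * τ = τ * k := by
  have h : K ≤ Subgroup.centralizer ({τ} : Set G') := by
    have e : K = S.letL [0,1,2,3,4,5,6,8,9] := Fi23Main.hsubL
    rw [e]
    apply S.letL_le_iff
    intro g hg
    rw [Subgroup.mem_centralizer_singleton_iff]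
    exact comm_letter hg
  intro k hk
  exact Subgroup.mem_centralizer_singleton_iff.1 (h hk)

/-- The coset of a word with its walk. -/
theorem e_word {w : List ℕ} (hw : ∀ g ∈ w, g < S.ng) :
    ((C.rep.e (evalWord S.v w.reverse • ((1 : G') : G' ⧸ K))).val) = walk tT w 0 := by
  rw [C.rep.e_smul]
  have h1 : C.rep.e ((1 : G') : G' ⧸ K) = ⟨0, C.hn⟩ := C.rep_base
  rw [h1]
  have h2 := C.tableData.walk_eq hw ⟨0, C.hn⟩
  have h3 : (C.tableData.φ (evalWord S.v w))⁻¹ = C.rep.φ (evalWord S.v w.reverse) := by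
    rw [← map_inv, inv_eval w hw]
    rfl
  rw [h3] at h2
  exact h2

/-- The representatives of the orbits. -/
noncomputable def u₁ : G' := evalWord S.v ru1
noncomputable def u₂ : G' := evalWord S.v ru2

theorem ru1_rev : ur1.reverse = ru1 := by decide +kernel
theorem ru2_rev : ur2.reverse = ru2 := by decide +kernel

theorem walk_u1 : walk tT ur1 0 = 28161 := by decide +kernel
theorem walk_u2 : walk tT ur2 0 = 1 := by decide +kernel

theorem ivs_eq : C.ivs = [(0,1),(1,28161),(28161,31671)] := rfl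
theorem n_eq : C.n = 31671 := rfl

theorem hcases (x : G' ⧸ K) : x = ((1 : G') : G' ⧸ K) ∨ (∃ h ∈ K, h • x = u₁ • ((1 : G') : G' ⧸ K)) ∨
    (∃ h ∈ K, h • x = u₂ • ((1 : G') : G' ⧸ K)) := by
  have hx := (C.rep.e x).2
  have e1 : ((C.rep.e (u₁ • ((1 : G') : G' ⧸ K))).val) = 28161 := by
    have := e_word hlu1
    rw [ru1_rev, walk_u1] at this
    exact this
  have e2 : ((C.rep.e (u₂ • ((1 : G') : G' ⧸ K))).val) = 1 := by
    have := e_word hlu2
    rw [ru2_rev, walk_u2] at this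
    exact this
  have hn : C.n = 31671 := n_eq
  have key : ∀ (iv : ℕ × ℕ) (y : G' ⧸ K), iv ∈ C.ivs → iv.2 ≤ C.n → iv.1 ≤ (C.rep.e x).val → (C.rep.e x).val < iv.2 →
      iv.1 ≤ (C.rep.e y).val → (C.rep.e y).val < iv.2 → ∃ h ∈ K, h • x = y := by
    intro iv y h1 h2 h3 h4 h5 h6
    obtain ⟨h, hh, he⟩ := C.iv_trans iv h1 h2 (C.rep.e x) (C.rep.e y) h3 h4 h5 h6
    refine ⟨h, hh, C.rep.e.injective ?_⟩
    rw [C.rep.e_smul, he]
  by_cases h0 : (C.rep.e x).val = 0
  · left
    apply C.rep.e.injective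
    have h1 : C.rep.e ((1 : G') : G' ⧸ K) = ⟨0, C.hn⟩ := C.rep_base
    rw [h1]
    exact Fin.ext h0
  · right
    by_cases h3 : (C.rep.e x).val < 28161
    · right
      refine key (1, 28161) _ (by rw [ivs_eq]; simp) (by rw [hn]; norm_num) (by show 1 ≤ _; omega) h3 ?_ ?_
      · rw [e2]
      · rw [e2]
        norm_num
    · left
      refine key (28161, 31671) _ (by rw [ivs_eq]; simp) (by rw [hn]) (by show 28161 ≤ _; omega) ?_ ?_ ?_
      · have h5 : (C.rep.e x).val < 31671 := by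
          have := (C.rep.e x).2
          omega
        exact h5
      · rw [e1]
      · rw [e1]
        norm_num

theorem ne₁ : u₁ * τ ≠ τ * u₁ := by
  have e1 : u₁ * τ = evalWord S.v (ru1 ++ wt) := by
    rw [evalWord_append']
    rfl
  have e2 : τ * u₁ = evalWord S.v (wt ++ ru1) := by
    rw [evalWord_append']
    rfl
  rw [e1, e2]
  refine eval_ne_of_walk ?_ ?_ (i := 1) (by decide +kernel) (by decide +kernel)
  · intro a ha
    rcases List.mem_append.1 ha with ha | ha
    · exact hlr1 a ha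
    · exact hlt a ha
  · intro a ha
    rcases List.mem_append.1 ha with ha | ha
    · exact hlt a ha
    · exact hlr1 a ha

theorem ne₂ : u₂ * τ ≠ τ * u₂ := by
  have e1 : u₂ * τ = evalWord S.v (ru2 ++ wt) := by
    rw [evalWord_append']
    rfl
  have e2 : τ * u₂ = evalWord S.v (wt ++ ru2) := by
    rw [evalWord_append']
    rfl
  rw [e1, e2]
  refine eval_ne_of_walk ?_ ?_ (i := 0) (by decide +kernel) (by decide +kernel)
  · intro a ha
    rcases List.mem_append.1 ha with ha | ha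
    · exact hlr2 a ha
    · exact hlt a ha
  · intro a ha
    rcases List.mem_append.1 ha with ha | ha
    · exact hlt a ha
    · exact hlr2 a ha

theorem τ_ne : τ ≠ 1 := by
  intro h
  apply ne₁
  rw [h]
  simp

/-- The products with the conjugates, from their walks. -/
theorem walk_conj {ur ru : List ℕ} (hru : ∀ g ∈ ru, g < S.ng) {i : ℕ} (hi : i < C.n) :
    walk tT (wt ++ (ru ++ (wt ++ ur))) i = walkF tT ur (aU (walkF tT ru (aU i))) := by
  have h1 : aU i < C.n := by
    rw [← (pt hi).1]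
    exact lt_of_walk hlt hi
  have h2 : walk tT ru (aU i) < C.n := lt_of_walk hru h1
  rw [walk_append, walk_append, walk_append, (pt hi).1, walkF_eq, walkF_eq, (pt h2).1]

theorem conj_word {ur ru : List ℕ} (hur : ∀ g ∈ ur, g < S.ng) (hrev : ur.reverse = ru) :
    τ * (evalWord S.v ru * τ * (evalWord S.v ru)⁻¹) = evalWord S.v (wt ++ (ru ++ (wt ++ ur))) := by
  have hru : ∀ g ∈ ru, g < S.ng := by
    intro g hg
    rw [← hrev] at hg
    exact hur g (List.mem_reverse.1 hg)
  have h1 : (evalWord S.v ru)⁻¹ = evalWord S.v ur := by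
    rw [inv_eval ru hru, ← hrev, List.reverse_reverse]
  rw [evalWord_append', evalWord_append', evalWord_append', h1]
  simp only [τ, mul_assoc]

theorem letters_conj {ur ru : List ℕ} (hur : ∀ g ∈ ur, g < S.ng) (hru : ∀ g ∈ ru, g < S.ng) :
    ∀ g ∈ wt ++ (ru ++ (wt ++ ur)), g < S.ng := by
  intro a ha
  simp only [List.mem_append] at ha
  rcases ha with ha | ha | ha | ha
  · exact hlt a ha
  · exact hru a ha
  · exact hlt a ha
  · exact hur a ha

theorem h21 : (τ * (u₁ * τ * u₁⁻¹)) ^ 2 = 1 := by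
  have := conj_word hlu1 ru1_rev
  unfold u₁
  rw [this]
  refine C.tableData.pow_eq_one_U hinj (letters_conj hlu1 hlr1) 2 F1 ?_ ?_
  · intro i hi
    exact walk_conj hlr1 hi
  · intro i hi
    exact (pt hi).2.2.2.1

theorem h32 : (τ * (u₂ * τ * u₂⁻¹)) ^ 3 = 1 := by
  have := conj_word hlu2 ru2_rev
  unfold u₂
  rw [this]
  refine C.tableData.pow_eq_one_U hinj (letters_conj hlu2 hlr2) 3 F2 ?_ ?_
  · intro i hi
    exact walk_conj hlr2 hi
  · intro i hi
    exact (pt hi).2.2.2.2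

instance : IsSimpleGroup G' := Fi23Main.main.1

theorem hclass : Cfsg.IsThreeTranspositionClass (conjugatesOf τ) ∧ Nat.card (conjugatesOf τ) = K.index ∧
    Subgroup.centralizer {τ} = K :=
  class_of_quot comm_K ττ τ_ne ne₁ ne₂ hcases h21 h32

end Cfsg.Agent.Lib.Fi23Cls
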